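import Cfsg.Agent.H310.OQ.Gen
import Cfsg.Agent.Nodes.RGDChev
import Cfsg.Agent.ChevalleyStructure.BruhatSplit

/-!
# S4884, own odd characteristic: the input for `G₂`, `F₄`, `E₆`, `E₇`, `E₈` (helper310)

* `in_group` : the input `In` for the root group datum of `D.group K`, `(2 : K) ≠ 0`;
* `hasIn_G2`, `hasIn_F4`, `hasIn_E6`, `hasIn_E7`, `hasIn_E8`.
-/

set_option autoImplicit false
set_option linter.unusedSectionVars false

namespace Cfsg.Agent.H310.OQ

open CoxeterSystem Cfsg.Agent.ChevalleyStructure.CoxeterGeom Cfsg.Agent.Tits.Roots Cfsg.Agent.Nodes.Reps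
  Cfsg.Agent.Nodes.BNOf Cfsg.Agent.Nodes.Bruhat Cfsg.Agent.H684.OQ
open Cfsg.Lie Cfsg.Agent.ChevalleyStructure Cfsg.Agent.ChevalleyStructure.Elts
  Cfsg.Agent.ChevalleyStructure.RootVec Cfsg.Agent.ChevalleyStructure.RootVecTab
  Cfsg.Agent.ChevalleyStructure.CoxeterGeomTypes Cfsg.Agent.Nodes.RGDChev

universe u

/-! ### The Chevalley groups -/

theorem diag_comm {D : ChevalleyDatum} (hD : InList D) {K : Type*} [Field K] {x y : GL D.Idx K}
    (hx : x ∈ D.diagonalSubgroup K) (hy : y ∈ D.diagonalSubgroup K) : x * y = y * x := by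
  obtain ⟨χ, hχ⟩ := HMatDiagAll.mem_torus.1 (HMatDiagAll.diagonalSubgroup_le_torus hD hx)
  obtain ⟨ψ, hψ⟩ := HMatDiagAll.mem_torus.1 (HMatDiagAll.diagonalSubgroup_le_torus hD hy)
  apply Units.ext
  rw [Units.val_mul, Units.val_mul, hχ, hψ, Matrix.diagonal_mul_diagonal, Matrix.diagonal_mul_diagonal]
  congr 1
  funext i
  exact mul_comm _ _

/-- the homomorphism of `SL_2(K)` belonging to a root -/
theorem exists_phi {D : ChevalleyDatum} (hD : InList D) {r : ℕ} (hr : r < D.nroots) (K : Type u) [Field K] :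
    ∃ φ : Matrix.SpecialLinearGroup (Fin 2) K →* GL D.Idx K, (∀ t, φ (uu t) = xG hD r t) ∧
      (∀ t, φ (ll t) = xG hD (D.neg r) t) ∧ φ ww = nG hD r 1 ∧ (∀ c : Kˣ, φ (dd c) = hG hD r (c : K)) ∧
      φ.range = D.rootSubgroup K r ⊔ D.rootSubgroup K (D.neg r) := by
  obtain ⟨φ, hrange, hφ⟩ := Cfsg.Agent.S1030.result (F := K) D hD r hr
  have hu : ∀ t, φ (uu t) = xG hD r t := fun t => Units.ext ((hφ (uu t) t).1 rfl)
  have hl : ∀ t, φ (ll t) = xG hD (D.neg r) t := fun t => Units.ext ((hφ (ll t) t).2 rfl)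
  refine ⟨φ, hu, hl, ?_, fun c => ?_, hrange⟩
  · rw [ww_eq, map_mul, map_mul, hu, hl, nG_def, inv_one, mul_assoc]
  · rw [dd_eq, map_mul, map_mul, map_mul, map_mul, map_mul, hu, hu, hl, hl, hG_def, nG_def, nG_def, inv_neg, inv_one,
      _root_.neg_neg]
    group

section Chev

variable {D : ChevalleyDatum} {l : ℕ} {M : CoxeterMatrix (Fin l)} (hp : IsType D l M) {K : Type u} [Field K]

include hp

/-- the homomorphism of `SL_2(K)` into `D.group K` -/
theorem exists_phiG (i : Fin l) : ∃ φ : Matrix.SpecialLinearGroup (Fin 2) K →* ↥(D.group K),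
    (∀ t, (φ (uu t) : GL D.Idx K) = xG hp.inList (D.simple i) t) ∧
      (⟨nn hp K i, nn_mem_group hp i⟩ : ↥(D.group K)) = φ ww ∧
      ∀ c : Kˣ, (φ (dd c) : GL D.Idx K) = hG hp.inList (D.simple i) (c : K) := by
  have hr := NPerm.simple_lt hp.inList (lt_rank hp i)
  obtain ⟨φ, hu, hl, hw, hd, hrange⟩ := exists_phi hp.inList hr K
  have hG : ∀ g, φ g ∈ D.group K := by
    intro g
    have h1 : φ g ∈ φ.range := ⟨g, rfl⟩
    rw [hrange] at h1
    refine (sup_le ?_ ?_ : D.rootSubgroup K (D.simple i) ⊔ D.rootSubgroup K (D.neg (D.simple i)) ≤ D.group K) h1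
    · intro x hx
      obtain ⟨t, rfl⟩ := (mem_rootSubgroup_iff hp.inList _ x).1 hx
      exact xG_mem_group hp.inList _ t
    · intro x hx
      obtain ⟨t, rfl⟩ := (mem_rootSubgroup_iff hp.inList _ x).1 hx
      exact xG_mem_group hp.inList _ t
  exact ⟨φ.codRestrict (D.group K) hG, hu, Subtype.ext hw.symm, hd⟩

theorem sq_group [Finite K] {W : Type*} [Group W] (cs : CoxeterSystem M W) : Sq cs hp.isCartan
    (fun i => (⟨nn hp K i, nn_mem_group hp i⟩ : ↥(D.group K)))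
      (fun x => (XV D l K x).subgroupOf (D.group K)) := by
  have hsq : ∀ i : Fin l, (nn hp K i) ^ 2 = hG hp.inList (D.simple i) (-1 : K) := by
    intro i
    obtain ⟨φ, hu, hl, hw, hd, -⟩ := exists_phi hp.inList (NPerm.simple_lt hp.inList (lt_rank hp i)) K
    have h1 := hd (-1)
    rw [Units.val_neg, Units.val_one] at h1
    rw [← h1, ← ww_sq, map_pow, hw]
    rfl
  have hconj : ∀ (i : Fin l) {r : ℕ}, r < D.nroots → ∀ t : K, (nn hp K i) ^ 2 * xG hp.inList r t *
      ((nn hp K i) ^ 2)⁻¹ = xG hp.inList r ((-1 : K) ^ D.cartan i r * t) := by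
    intro i r hr t
    rw [hsq]
    exact BruhatSplit.hG_simple_conj hp.inList (lt_rank hp i) hr (neg_ne_zero.2 one_ne_zero) t
  refine ⟨fun i => ?_, fun i x hx he y hy => ?_, fun i x hx he y hy => ?_⟩
  · obtain ⟨φ, hu, hl, hw, hd, -⟩ := exists_phi hp.inList (NPerm.simple_lt hp.inList (lt_rank hp i)) K
    apply Subtype.ext
    show (nn hp K i ^ 2) ^ 2 = 1
    have h1 : nn hp K i = φ ww := hw.symm
    rw [h1, ← map_pow, ← map_pow, ww_sq_sq, map_one]
  · obtain ⟨r, hr, rfl⟩ := (isRoot_iff hp cs x).1 hx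
    rw [pairing_vec hp i hr] at he
    rw [Subgroup.mem_subgroupOf, XV_vec hp K hr, mem_rootSubgroup_iff hp.inList] at hy
    obtain ⟨t, ht⟩ := hy
    rw [← mul_inv_eq_iff_eq_mul]
    apply Subtype.ext
    show (nn hp K i) ^ 2 * (y : GL D.Idx K) * ((nn hp K i) ^ 2)⁻¹ = y
    rw [ht, hconj i hr, he.neg_one_zpow, one_mul]
  · obtain ⟨r, hr, rfl⟩ := (isRoot_iff hp cs x).1 hx
    rw [pairing_vec hp i hr, Int.not_even_iff_odd] at he
    rw [Subgroup.mem_subgroupOf, XV_vec hp K hr, mem_rootSubgroup_iff hp.inList] at hy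
    obtain ⟨t, ht⟩ := hy
    apply Subtype.ext
    show (nn hp K i) ^ 2 * (y : GL D.Idx K) * ((nn hp K i) ^ 2)⁻¹ = (y : GL D.Idx K)⁻¹
    rw [ht, hconj i hr, he.neg_one_zpow, neg_one_mul, xG_inv]

theorem node_group [Finite K] (i : Fin l) : SLNode ((D.diagonalSubgroup K).subgroupOf (D.group K))
    (fun i => (⟨nn hp K i, nn_mem_group hp i⟩ : ↥(D.group K)))
      (fun x => (XV D l K x).subgroupOf (D.group K)) i := by
  have hr := NPerm.simple_lt hp.inList (lt_rank hp i)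
  obtain ⟨φ, hu, hw, hd⟩ := exists_phiG (K := K) hp i
  refine slNode_of_sl2 φ hw (fun c => ?_) (fun g => ?_) fun t ht => ?_
  · rw [Subgroup.mem_subgroupOf, hd]
    exact hG_mem_diagonal hp.inList hr c.ne_zero
  · rw [Subgroup.mem_subgroupOf, XV_sr hp, mem_rootSubgroup_iff hp.inList]
    refine exists_congr fun t => ?_
    rw [← hu, ← Subtype.ext_iff]
  · refine (xG_eq_one_iff hp.inList hr t).1 ?_
    rw [← hu, ht]
    rfl

/-- **the input for `D.group K`** -/
theorem in_group [Finite K] (p : ℕ) [CharP K p] (h2 : (2 : K) ≠ 0) (hA : ∀ j, ∃ i, ¬ Even (cartanOf D l i j)) :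
    HasIn p M ↥(D.group K) := by
  have hpp : p.Prime := CharP.char_is_prime K p
  have : Fact p.Prime := ⟨hpp⟩
  have hp2 : p ≠ 2 := by
    rintro rfl
    exact h2 (by exact_mod_cast CharP.cast_eq_zero K 2)
  have hW : Finite M.Group := finite_W hp M.toCoxeterSystem
  refine ⟨_, hp.isCartan, _, _, _, hW, in_of_sq (rgd (K := K) hp M.toCoxeterSystem p) hpp hp2 (G1_eq_top hp _) ?_
    (sq_group hp _) hA (node_group hp)⟩
  intro a ha b hb
  exact Subtype.ext (diag_comm hp.inList ha hb)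

end Chev

theorem hasIn_G2 (K : Type u) [Field K] [Finite K] (p : ℕ) [CharP K p] (h2 : (2 : K) ≠ 0) :
    HasIn p CoxeterMatrix.G₂ ↥(chevG2.group K) :=
  in_group (by simp [IsType, typeList]) p h2 (by decide +kernel)

theorem hasIn_F4 (K : Type u) [Field K] [Finite K] (p : ℕ) [CharP K p] (h2 : (2 : K) ≠ 0) :
    HasIn p CoxeterMatrix.F₄ ↥(chevF4.group K) :=
  in_group (by simp [IsType, typeList]) p h2 (by decide +kernel)

theorem hasIn_E6 (K : Type u) [Field K] [Finite K] (p : ℕ) [CharP K p] (h2 : (2 : K) ≠ 0) :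
    HasIn p CoxeterMatrix.E₆ ↥(chevE6.group K) :=
  in_group (by simp [IsType, typeList]) p h2 (by decide +kernel)

theorem hasIn_E7 (K : Type u) [Field K] [Finite K] (p : ℕ) [CharP K p] (h2 : (2 : K) ≠ 0) :
    HasIn p CoxeterMatrix.E₇ ↥(chevE7.group K) :=
  in_group (by simp [IsType, typeList]) p h2 (by decide +kernel)

theorem hasIn_E8 (K : Type u) [Field K] [Finite K] (p : ℕ) [CharP K p] (h2 : (2 : K) ≠ 0) :
    HasIn p CoxeterMatrix.E₈ ↥(chevE8.group K) :=
  in_group (by simp [IsType, typeList]) p h2 (by decide +kernel)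

end Cfsg.Agent.H310.OQ
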