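import Cfsg.Agent.H310.OQ.Exc
import Cfsg.Agent.Nodes.RGDFold

/-!
# S4884, own odd characteristic: the input for the folded groups (helper310)

* `Blk hp K o Φ` : a homomorphism of `SL_2(k)` belonging to the block `o` of simple roots;
* `in_fold` : the input `HasIn` for a folded group.
-/

set_option autoImplicit false
set_option linter.unusedSectionVars false

namespace Cfsg.Agent.H310.OQ

open CoxeterSystem Cfsg.Agent.ChevalleyStructure.CoxeterGeom Cfsg.Agent.Tits.Roots Cfsg.Agent.Nodes.Reps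
  Cfsg.Agent.Nodes.BNOf Cfsg.Agent.Nodes.Bruhat Cfsg.Agent.H684.OQ
open Cfsg.Lie Cfsg.Agent.ChevalleyStructure Cfsg.Agent.ChevalleyStructure.Elts
  Cfsg.Agent.ChevalleyStructure.RootVec Cfsg.Agent.ChevalleyStructure.RootVecTab
  Cfsg.Agent.ChevalleyStructure.CoxeterGeomTypes Cfsg.Agent.Nodes.RGDChev Cfsg.Agent.Nodes.RGDFold
  Cfsg.Agent.ChevalleyStructure.TwistedU Cfsg.Agent.ChevalleyStructure.TwistedFix

universe u

/-! ### `SL_2` -/

section sl2

open Matrix

variable {k : Type*} [Field k]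

theorem uu_ll_uu (g : SpecialLinearGroup (Fin 2) k) (hc : g.1 1 0 ≠ 0) :
    g = uu ((g.1 0 0 - 1) / g.1 1 0) * ll (g.1 1 0) * uu ((g.1 1 1 - 1) / g.1 1 0) := by
  have hd : g.1 0 0 * g.1 1 1 - g.1 0 1 * g.1 1 0 = 1 := by
    rw [← Matrix.det_fin_two]; exact g.2
  apply Subtype.ext
  have h1 : g.1 = !![g.1 0 0, g.1 0 1; g.1 1 0, g.1 1 1] := Matrix.eta_fin_two _
  rw [val_mul, val_mul, uu_val, uu_val, ll_val]
  conv_lhs => rw [h1]
  ext i j
  fin_cases i <;> fin_cases j
  · simp; field_simp; ring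
  · simp; field_simp; linear_combination (-1) * hd
  · simp
  · simp; field_simp; ring

theorem eq_top_of_uu_ll (S : Subgroup (SpecialLinearGroup (Fin 2) k)) (hu : ∀ t, uu t ∈ S) (hl : ∀ t, ll t ∈ S) :
    S = ⊤ := by
  rw [eq_top_iff]
  intro g _
  have key : ∀ g : SpecialLinearGroup (Fin 2) k, g.1 1 0 ≠ 0 → g ∈ S := fun g hg => by
    rw [uu_ll_uu g hg]
    exact mul_mem (mul_mem (hu _) (hl _)) (hu _)
  by_cases hc : g.1 1 0 = 0
  · have hd : g.1 0 0 * g.1 1 1 - g.1 0 1 * g.1 1 0 = 1 := by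
      rw [← Matrix.det_fin_two]; exact g.2
    have h1 : (ll 1 * g).1 1 0 ≠ 0 := by
      rw [val_mul, ll_val, Matrix.mul_apply, Fin.sum_univ_two]
      simp only [Matrix.cons_val', Matrix.cons_val_zero, Matrix.cons_val_one, Matrix.of_apply, Matrix.cons_val_fin_one]
      rw [hc, mul_zero, add_zero, one_mul]
      intro h0
      rw [h0, hc] at hd
      simp at hd
    have h2 := mul_mem (inv_mem (hl 1)) (key _ h1)
    rwa [inv_mul_cancel_left] at h2
  · exact key g hc

variable {k' : Type*} [Field k'] (ψ : k →+* k')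

theorem map_uu (t : k) : SpecialLinearGroup.map ψ (uu t) = uu (ψ t) := by
  apply Subtype.ext
  show (uu t).1.map ψ = (uu (ψ t)).1
  rw [uu_val, uu_val]
  ext i j
  fin_cases i <;> fin_cases j <;> simp

theorem map_ll (t : k) : SpecialLinearGroup.map ψ (ll t) = ll (ψ t) := by
  apply Subtype.ext
  show (ll t).1.map ψ = (ll (ψ t)).1
  rw [ll_val, ll_val]
  ext i j
  fin_cases i <;> fin_cases j <;> simp

theorem map_ww : SpecialLinearGroup.map ψ (ww : SpecialLinearGroup (Fin 2) k) = ww := by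
  apply Subtype.ext
  show (ww : SpecialLinearGroup (Fin 2) k).1.map ψ = (ww : SpecialLinearGroup (Fin 2) k').1
  rw [ww_val, ww_val]
  ext i j
  fin_cases i <;> fin_cases j <;> simp

theorem map_dd (c : kˣ) : SpecialLinearGroup.map ψ (dd c) = dd (Units.map ψ.toMonoidHom c) := by
  apply Subtype.ext
  show (dd c).1.map ψ = (dd (Units.map ψ.toMonoidHom c)).1
  rw [dd_val, dd_val]
  ext i j
  fin_cases i <;> fin_cases j <;> simp

theorem map_neg_one_unit : Units.map ψ.toMonoidHom (-1 : kˣ) = -1 := by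
  apply Units.ext
  simp

end sl2

/-! ### Blocks -/

section blk

open Matrix

variable {D : ChevalleyDatum} {l : ℕ} {M' : CoxeterMatrix (Fin l)} (hp : IsType D l M') {K : Type u} [Field K]
  {k : Type u} [Field k]

/-- a homomorphism of `SL_2(k)` belonging to the block `o` of simple roots -/
structure Blk (o : List (Fin l)) (Φ : SpecialLinearGroup (Fin 2) k →* GL D.Idx K) : Prop where
  w : Φ ww = nI hp K o
  d : ∀ c : kˣ, Φ (dd c) ∈ D.diagonalSubgroup K
  m : Φ (dd (-1)) = (o.map fun j : Fin l => hG hp.inList (D.simple j) (-1 : K)).prod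

/-- one simple root and an embedding of fields -/
theorem exists_blk_single (j : Fin l) (ψ : k →+* K) : ∃ Φ : SpecialLinearGroup (Fin 2) k →* GL D.Idx K,
    Blk hp [j] Φ ∧ (∀ t, Φ (uu t) = xG hp.inList (D.simple j) (ψ t)) ∧
      (∀ t, Φ (ll t) = xG hp.inList (D.neg (D.simple j)) (ψ t)) := by
  have hr := NPerm.simple_lt hp.inList (lt_rank hp j)
  obtain ⟨φ, hu, hl, hw, hd, -⟩ := exists_phi hp.inList hr K
  refine ⟨φ.comp (SpecialLinearGroup.map ψ), ⟨?_, fun c => ?_, ?_⟩, fun t => ?_, fun t => ?_⟩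
  · rw [MonoidHom.comp_apply, map_ww, hw]
    show _ = ([j].map (nn hp K)).prod
    rw [List.map_cons, List.map_nil, List.prod_singleton]
    rfl
  · rw [MonoidHom.comp_apply, map_dd, hd]
    exact hG_mem_diagonal hp.inList hr (Units.ne_zero _)
  · rw [MonoidHom.comp_apply, map_dd, map_neg_one_unit, hd, List.map_cons, List.map_nil, List.prod_singleton,
      Units.val_neg, Units.val_one]
  · rw [MonoidHom.comp_apply, map_uu, hu]
  · rw [MonoidHom.comp_apply, map_ll, hl]

/-- the homomorphisms commute if the root groups do -/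
theorem commute_of {Y : Type*} [Group Y] (Φ Ψ : SpecialLinearGroup (Fin 2) k →* Y)
    (h1 : ∀ s t, Commute (Φ (uu s)) (Ψ (uu t))) (h2 : ∀ s t, Commute (Φ (uu s)) (Ψ (ll t)))
    (h3 : ∀ s t, Commute (Φ (ll s)) (Ψ (uu t))) (h4 : ∀ s t, Commute (Φ (ll s)) (Ψ (ll t)))
    (x y : SpecialLinearGroup (Fin 2) k) : Commute (Φ x) (Ψ y) := by
  have key : ∀ z : Y, (∀ t, Commute z (Ψ (uu t))) → (∀ t, Commute z (Ψ (ll t))) → ∀ y, Commute z (Ψ y) := by
    intro z hu hl y
    have h5 : (Subgroup.centralizer {z}).comap Ψ = ⊤ := by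
      refine eq_top_of_uu_ll _ (fun t => ?_) fun t => ?_
      · exact Subgroup.mem_centralizer_singleton_iff.2 (hu t).eq.symm
      · exact Subgroup.mem_centralizer_singleton_iff.2 (hl t).eq.symm
    have h6 : y ∈ (Subgroup.centralizer {z}).comap Ψ := by rw [h5]; exact Subgroup.mem_top y
    exact (Subgroup.mem_centralizer_singleton_iff.1 h6).symm
  have h7 : (Subgroup.centralizer {Ψ y}).comap Φ = ⊤ := by
    refine eq_top_of_uu_ll _ (fun s => ?_) fun s => ?_
    · exact Subgroup.mem_centralizer_singleton_iff.2 (key _ (h1 s) (h2 s) y).eq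
    · exact Subgroup.mem_centralizer_singleton_iff.2 (key _ (h3 s) (h4 s) y).eq
  have h8 : x ∈ (Subgroup.centralizer {Ψ y}).comap Φ := by rw [h7]; exact Subgroup.mem_top x
  exact Subgroup.mem_centralizer_singleton_iff.1 h8

/-- the product of two blocks -/
theorem Blk.cons {j : Fin l} {o : List (Fin l)} {Φ Ψ : SpecialLinearGroup (Fin 2) k →* GL D.Idx K}
    (h1 : Blk hp [j] Φ) (h2 : Blk hp o Ψ) (hc : ∀ x y, Commute (Φ x) (Ψ y)) :
    ∃ Θ : SpecialLinearGroup (Fin 2) k →* GL D.Idx K, Blk hp (j :: o) Θ ∧ ∀ g, Θ g = Φ g * Ψ g := by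
  let Θ : SpecialLinearGroup (Fin 2) k →* GL D.Idx K :=
    { toFun := fun g => Φ g * Ψ g
      map_one' := by rw [map_one, map_one, one_mul]
      map_mul' := fun a b => by
        rw [map_mul, map_mul, mul_assoc, mul_assoc, ← mul_assoc (Φ b), (hc b a).eq, mul_assoc] }
  refine ⟨Θ, ⟨?_, fun c => mul_mem (h1.d c) (h2.d c), ?_⟩, fun g => rfl⟩
  · show Φ ww * Ψ ww = _
    rw [h1.w, h2.w, nI_cons, nI_cons]
    show nn hp K j * 1 * _ = _
    rw [mul_one]
  · show Φ (dd (-1)) * Ψ (dd (-1)) = _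
    rw [h1.m, h2.m, List.map_cons, List.map_cons, List.map_nil, List.prod_singleton, List.prod_cons]

/-- the action of a product of `h_j(-1)` -/
theorem prod_h_conj (o : List (Fin l)) {s : ℕ} (hs : s < D.nroots) (t : K) :
    (o.map fun j : Fin l => hG hp.inList (D.simple j) (-1 : K)).prod * xG hp.inList s t *
      ((o.map fun j : Fin l => hG hp.inList (D.simple j) (-1 : K)).prod)⁻¹ =
      xG hp.inList s ((-1 : K) ^ (o.map fun j : Fin l => D.cartan j s).sum * t) := by
  have hne : (-1 : K) ≠ 0 := neg_ne_zero.2 one_ne_zero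
  induction o with
  | nil => simp
  | cons j o ih =>
    rw [List.map_cons, List.prod_cons, List.map_cons, List.sum_cons, zpow_add₀ hne, mul_assoc ((-1 : K) ^ _),
      ← BruhatSplit.hG_simple_conj hp.inList (lt_rank hp j) hs hne, ← ih]
    group

end blk

/-! ### The input for a folded group -/

section fold

open Matrix

variable {m l : ℕ} {D : ChevalleyDatum} {M' : CoxeterMatrix (Fin l)} {hp : IsType D l M'} {K : Type u} [Field K]
  {M : CoxeterMatrix (Fin m)} {A : Fin m → Fin m → ℤ} {J : Fin m → List (Fin l)} {L : List (List ℕ)}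
  {σ : GL D.Idx K →* GL D.Idx K} {ρ ρ' : ℕ → ℕ} {f : ℕ → K → K} {G : Subgroup (GL D.Idx K)}

/-- a node of the folded group: a block homomorphism of `SL_2(k)` into `G` which parametrises the root group -/
def NodeOK (hp : IsType D l M') (K : Type u) [Field K] (J : Fin m → List (Fin l)) (σ : GL D.Idx K →* GL D.Idx K)
    (G : Subgroup (GL D.Idx K)) (i : Fin m) : Prop :=
  ∃ (k : Type u) (_ : Field k) (_ : Finite k) (Φ : SpecialLinearGroup (Fin 2) k →* GL D.Idx K),
    Blk hp (J i) Φ ∧ (∀ t, Φ (uu t) ∈ G) ∧ (∀ t, Φ (ll t) ∈ G) ∧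
      (∀ g, g ∈ R D hp K J σ (sr i) ↔ ∃ t, g = Φ (uu t)) ∧ ∀ t, Φ (uu t) = 1 → t = 0

theorem NodeOK.node (FG : FoldGrp hp K J L σ ρ ρ' f G) {i : Fin m} (h : NodeOK hp K J σ G i) :
    SLNode ((D.diagonalSubgroup K ⊓ G).subgroupOf G) (fun i => (⟨nI hp K (J i), FG.nG i⟩ : ↥G))
      (fun z => (R D hp K J σ z).subgroupOf G) i := by
  obtain ⟨k, _, _, Φ, hB, hu, hl, hX, hinj⟩ := h
  have hG : ∀ g, Φ g ∈ G := by
    intro g
    have h1 : G.comap Φ = ⊤ := eq_top_of_uu_ll _ hu hl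
    have h2 : g ∈ G.comap Φ := by rw [h1]; exact Subgroup.mem_top g
    exact h2
  refine slNode_of_sl2 (Φ.codRestrict G hG) (Subtype.ext hB.w.symm) (fun c => ?_) (fun g => ?_) fun t ht => ?_
  · rw [Subgroup.mem_subgroupOf]
    exact ⟨hB.d c, hG _⟩
  · rw [Subgroup.mem_subgroupOf, hX]
    refine exists_congr fun t => ?_
    rw [Subtype.ext_iff]
    rfl
  · exact hinj t (congrArg Subtype.val ht)

theorem NodeOK.sq {i : Fin m} (h : NodeOK hp K J σ G i) :
    (nI hp K (J i) ^ 2) ^ 2 = 1 ∧ nI hp K (J i) ^ 2 =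
      ((J i).map fun j : Fin l => hG hp.inList (D.simple j) (-1 : K)).prod := by
  obtain ⟨k, _, _, Φ, hB, hu, hl, hX, hinj⟩ := h
  constructor
  · rw [← hB.w, ← map_pow, ← map_pow, ww_sq_sq, map_one]
  · rw [← hB.w, ← map_pow, ww_sq, hB.m]

/-- elements of an abelian span inverted (or centralised) by `z` -/
theorem conj_rspan (x : ℕ → K → GL D.Idx K) (S : Set ℕ) (z : GL D.Idx K)
    (hcomm : ∀ r ∈ S, ∀ s ∈ S, ∀ t u : K, Commute (x r t) (x s u))
    (hz : ∀ r ∈ S, ∀ t, z * x r t * z⁻¹ = (x r t)⁻¹) : ∀ g ∈ rspan x S, z * g * z⁻¹ = g⁻¹ := by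
  have hab : ∀ a ∈ rspan x S, ∀ b ∈ rspan x S, a * b = b * a := by
    have h1 : rspan x S ≤ Subgroup.centralizer (rspan x S : Set (GL D.Idx K)) := by
      refine rspan_le _ fun r hr t => ?_
      rw [Subgroup.mem_centralizer_iff]
      have h2 : rspan x S ≤ Subgroup.centralizer {x r t} :=
        rspan_le _ fun s hs u => Subgroup.mem_centralizer_singleton_iff.2 (hcomm r hr s hs t u).eq.symm
      intro b hb
      exact Subgroup.mem_centralizer_singleton_iff.1 (h2 hb)
    intro a ha b hb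
    exact (Subgroup.mem_centralizer_iff.1 (h1 ha) b hb).symm
  let Q : Subgroup (GL D.Idx K) :=
    { carrier := {g | g ∈ rspan x S ∧ z * g * z⁻¹ = g⁻¹}
      one_mem' := ⟨one_mem _, by simp⟩
      mul_mem' := by
        rintro a b ⟨ha, ha'⟩ ⟨hb, hb'⟩
        refine ⟨mul_mem ha hb, ?_⟩
        calc z * (a * b) * z⁻¹ = (z * a * z⁻¹) * (z * b * z⁻¹) := by group
          _ = a⁻¹ * b⁻¹ := by rw [ha', hb']
          _ = (b * a)⁻¹ := by rw [_root_.mul_inv_rev]
          _ = (a * b)⁻¹ := by rw [hab a ha b hb]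
      inv_mem' := by
        rintro a ⟨ha, ha'⟩
        refine ⟨inv_mem ha, ?_⟩
        have h1 : z * a⁻¹ * z⁻¹ = (z * a * z⁻¹)⁻¹ := by group
        rw [h1, ha'] }
  intro g hg
  have h1 : rspan x S ≤ Q := rspan_le _ fun r hr t => ⟨mem_rspan x hr t, hz r hr t⟩
  exact (h1 hg).2

/-- **the input for a folded group** -/
theorem in_fold [Finite K] (FD : FoldData D M A J L) (FG : FoldGrp hp K J L σ ρ ρ' f G) (h : IsCartan M A) (p : ℕ)
    [CharP K p] (h2 : (2 : K) ≠ 0) (hA : ∀ j, ∃ i, ¬ Even (A i j)) (hN : ∀ i, NodeOK hp K J σ G i)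
    (hpar : ∀ i, ∀ r < D.nroots, (Even (pairing A i (V D J r)) ↔ Even ((J i).map fun j : Fin l => D.cartan j r).sum))
    (hcls : ∀ r < D.nroots, ∀ s < D.nroots, V D J r = V D J s → s ≠ r → s ≠ D.neg r ∧ D.commTerms r s = []) :
    HasIn p M ↥G := by
  have hpp : p.Prime := CharP.char_is_prime K p
  have : Fact p.Prime := ⟨hpp⟩
  have hp2 : p ≠ 2 := by
    rintro rfl
    exact h2 (by exact_mod_cast CharP.cast_eq_zero K 2)
  have hW : Finite M.Group := Cfsg.Agent.Nodes.RGDFold.finite_W (hp := hp) M.toCoxeterSystem h FD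
  have hroot : ∀ z, IsRoot M.toCoxeterSystem h z ↔ ∃ r < D.nroots, V D J r = z :=
    fun z => FD.isRoot_iff hp.checked (fun i r hr => wp_lt hp (J i) hr) z
  have hact : ∀ i, ∀ s < D.nroots, ∀ t : K, nI hp K (J i) ^ 2 * xG hp.inList s t * (nI hp K (J i) ^ 2)⁻¹ =
      xG hp.inList s ((-1 : K) ^ ((J i).map fun j : Fin l => D.cartan j s).sum * t) := by
    intro i s hs t
    rw [(hN i).sq.2]
    exact prod_h_conj hp (J i) hs t
  refine ⟨A, h, _, _, _, hW, in_of_sq (Cfsg.Agent.Nodes.RGDFold.rgd M.toCoxeterSystem h FD FG p) hpp hp2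
    (Cfsg.Agent.Nodes.RGDFold.G1_eq_top M.toCoxeterSystem h FD FG p) ?_ ⟨fun i => ?_, fun i x hx he y hy => ?_,
      fun i x hx he y hy => ?_⟩ hA fun i => (hN i).node FG⟩
  · intro a ha b hb
    exact Subtype.ext (diag_comm hp.inList ha.1 hb.1)
  · exact Subtype.ext (hN i).sq.1
  · obtain ⟨r, hr, rfl⟩ := (hroot x).1 hx
    rw [hpar i r hr] at he
    rw [Subgroup.mem_subgroupOf] at hy
    have h3 : rspan (xG (F := K) hp.inList) {k | k < D.nroots ∧ V D J k = V D J r} ≤
        Subgroup.centralizer {nI hp K (J i) ^ 2} := by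
      refine rspan_le _ fun s hs t => ?_
      rw [Subgroup.mem_centralizer_singleton_iff]
      have h4 : Even ((J i).map fun j : Fin l => D.cartan j s).sum := by
        rw [← hpar i s hs.1, hs.2, hpar i r hr]
        exact he
      have h5 := hact i s hs.1 t
      rw [h4.neg_one_zpow, one_mul, mul_inv_eq_iff_eq_mul] at h5
      exact h5.symm
    have h6 := Subgroup.mem_centralizer_singleton_iff.1 (h3 hy.1)
    exact Subtype.ext h6.symm
  · obtain ⟨r, hr, rfl⟩ := (hroot x).1 hx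
    rw [hpar i r hr] at he
    rw [Subgroup.mem_subgroupOf] at hy
    apply Subtype.ext
    refine conj_rspan (xG (F := K) hp.inList) {k | k < D.nroots ∧ V D J k = V D J r} (nI hp K (J i) ^ 2) ?_ ?_ _ hy.1
    · intro r1 hr1 s1 hs1 t u
      by_cases hrs : s1 = r1
      · subst hrs
        show _ = _
        rw [xG_add, xG_add, add_comm]
      · obtain ⟨h3, h4⟩ := hcls r1 hr1.1 s1 hs1.1 (hr1.2.trans hs1.2.symm) hrs
        exact commute_of_nil hp hr1.1 hs1.1 hrs h3 h4 t u
    · intro s hs t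
      have h4 : ¬ Even ((J i).map fun j : Fin l => D.cartan j s).sum := by
        rw [← hpar i s hs.1, hs.2, hpar i r hr]
        exact he
      rw [Int.not_even_iff_odd] at h4
      rw [hact i s hs.1 t, h4.neg_one_zpow, neg_one_mul, xG_inv]

end fold

end Cfsg.Agent.H310.OQ
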