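import Cfsg.Agent.H310.OQ.Gen
import Cfsg.Agent.OddHalf.NI.ClosedSL

/-!
# S4884, own odd characteristic: the input for `PSL_{n+1}(F)`, `n ≥ 2` (helper310)
-/

set_option autoImplicit false
set_option linter.unusedSectionVars false

namespace Cfsg.Agent.H310.OQ

open Matrix CoxeterSystem Cfsg.Agent.ChevalleyStructure.CoxeterGeom Cfsg.Agent.Tits.Roots Cfsg.Agent.Nodes.Reps
  Cfsg.Agent.Nodes.BNOf Cfsg.Agent.Nodes.Bruhat Cfsg.Agent.H684.OQ
open Cfsg.Agent.Nodes.RGDTypeA Cfsg.Agent.Nodes.RootsA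
open Cfsg.Agent.LieRecognition.BNCox (cA)
open Cfsg.Agent.TitsThree.KSideA (tv tv_of_ne tv_add tv_zero tv_neg tv_comm tv_commute)
open Cfsg.Agent.OddHalf.NI.ClosedSL (emb emb_up emb_lo emb_dg)

universe u

namespace Psl

variable {n : ℕ} {F : Type u} [Field F]

theorem emb_uu {a b : Fin (n + 1)} (hab : a ≠ b) (t : F) : emb hab (uu t) = tv a b t := emb_up hab t

theorem emb_ll {a b : Fin (n + 1)} (hab : a ≠ b) (t : F) : emb hab (ll t) = tv b a t := emb_lo hab t

theorem emb_dd {a b : Fin (n + 1)} (hab : a ≠ b) (c : Fˣ) : (emb hab (dd c)).1 =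
    diagonal fun i => if i = a then (c : F) else if i = b then ((c⁻¹ : Fˣ) : F) else 1 := emb_dg hab c

theorem mono_dd {a b : Fin (n + 1)} (hab : a ≠ b) (c : Fˣ) : Mono 1 (emb hab (dd c)) := by
  intro i j h
  rw [emb_dd] at h
  by_contra hij
  exact h (diagonal_apply_ne _ hij)

theorem emb_ww {a b : Fin (n + 1)} (hab : a ≠ b) : emb (F := F) hab ww = nn a b 1 := by
  rw [ww_eq, map_mul, map_mul, emb_uu, emb_ll]
  unfold nn
  rw [inv_one]

theorem ns_eq (i : Fin n) : ns n F i = emb (F := F) (Fin.castSucc_lt_succ (i := i)).ne ww := by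
  rw [emb_ww]
  rfl

theorem ns_sq (i : Fin n) : ns n F i ^ 2 = emb (F := F) (Fin.castSucc_lt_succ (i := i)).ne (dd (-1)) := by
  rw [ns_eq, ← map_pow, ww_sq]

/-- the sign of `c` in `n_i ^ 2` -/
def sg (F : Type u) [Field F] (i : Fin n) (c : Fin (n + 1)) : F := if c = i.castSucc ∨ c = i.succ then -1 else 1

theorem sq_apply (i : Fin n) (c : Fin (n + 1)) : (ns n F i ^ 2).1 c c = sg F i c := by
  rw [ns_sq, emb_dd, diagonal_apply_eq, sg]
  by_cases h1 : c = i.castSucc
  · simp [h1]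
  · by_cases h2 : c = i.succ
    · simp [h2]
    · simp [h1, h2]

theorem sq_conj (i : Fin n) {a b : Fin (n + 1)} (hab : a ≠ b) (t : F) :
    ns n F i ^ 2 * tv a b t * (ns n F i ^ 2)⁻¹ = tv a b (sg F i a * t * (sg F i b)⁻¹) := by
  have hm : Mono 1 (ns n F i ^ 2) := by
    rw [ns_sq]
    exact mono_dd _ _
  have h1 := hm.conj_tv hab t
  simp only [Equiv.Perm.coe_one, id_eq] at h1
  rw [h1, sq_apply, sq_apply]

theorem par {A : Fin n → Fin n → ℤ} (h : IsCartan (cA n) A) (i : Fin n) (a b : Fin (n + 1)) :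
    Even (pairing A i (rtA a b)) ↔ ((a = i.castSucc ∨ a = i.succ) ↔ (b = i.castSucc ∨ b = i.succ)) := by
  have ha := a.2
  have hb := b.2
  have hi := i.2
  have hp := pairing_eq h i
    (fun k => (if a.val ≤ k then 1 else 0) - (if b.val ≤ k then 1 else 0))
    (by rw [if_pos (by omega), if_pos (by omega), sub_self])
  have e1 : (fun k : Fin n => (fun k : ℕ => ((if a.val ≤ k then 1 else 0) -
      (if b.val ≤ k then 1 else 0) : ℤ)) k.val) = rtA a b := rfl
  rw [e1] at hp
  rw [hp]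
  have ea : (a = i.castSucc ∨ a = i.succ) ↔ (a.val = i.val ∨ a.val = i.val + 1) := by
    rw [Fin.ext_iff, Fin.ext_iff, Fin.val_castSucc, Fin.val_succ]
  have eb : (b = i.castSucc ∨ b = i.succ) ↔ (b.val = i.val ∨ b.val = i.val + 1) := by
    rw [Fin.ext_iff, Fin.ext_iff, Fin.val_castSucc, Fin.val_succ]
  rw [ea, eb, Int.even_iff]
  split_ifs <;> constructor <;> intro h1 <;> omega

theorem tv_center {a b : Fin (n + 1)} (hab : a ≠ b) {t : F} (ht : pr n F (tv a b t) = 1) : t = 0 := by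
  have h1 : tv a b t ∈ Subgroup.center (SpecialLinearGroup (Fin (n + 1)) F) := by
    rw [← ker_pr]; exact ht
  obtain ⟨r, hr, e⟩ := Matrix.SpecialLinearGroup.mem_center_iff.1 h1
  have h2 := congrFun (congrFun (show (Matrix.scalar (Fin (n + 1))) r = (tv a b t).1 from e) a) b
  rw [Matrix.scalar_apply, diagonal_apply_ne _ hab, tv_val hab, Matrix.add_apply, Matrix.one_apply_ne hab,
    Matrix.single_apply_same, zero_add] at h2
  exact h2.symm

/-- **the input for `PSL_{n+1}(F)`, `n ≥ 2`** -/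
theorem hasIn_psl [Finite F] (hn : 2 ≤ n) (h2 : (2 : F) ≠ 0) (p : ℕ) [CharP F p] :
    HasIn p (cA n) (ProjectiveSpecialLinearGroup (Fin (n + 1)) F) := by
  have hpp : p.Prime := CharP.char_is_prime F p
  have : Fact p.Prime := ⟨hpp⟩
  have hp2 : p ≠ 2 := by
    rintro rfl
    exact h2 (by exact_mod_cast CharP.cast_eq_zero F 2)
  have hW : Finite (cA n).Group := finite_W (cA n).toCoxeterSystem (isCartan n)
  have hne : ∀ i : Fin n, i.castSucc ≠ i.succ := fun i => (Fin.castSucc_lt_succ (i := i)).ne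
  refine ⟨AA n, isCartan n, _, _, _, hW, in_of_sq (rgd_psl (p := p) _ (isCartan n)) hpp hp2 (G1_psl_eq_top _ _) ?_
    ⟨fun i => ?_, fun i x hx he y hy => ?_, fun i x hx he y hy => ?_⟩ ?_ fun i => ?_⟩
  · rintro _ ⟨a, ha, rfl⟩ _ ⟨b, hb, rfl⟩
    rw [← map_mul, ← map_mul]
    congr 1
    have ha' : Mono 1 a := ha
    have hb' : Mono 1 b := hb
    have key : ∀ g : SpecialLinearGroup (Fin (n + 1)) F, Mono 1 g → g.1 = diagonal fun c => g.1 c c := by
      intro g hg
      ext i j
      by_cases hij : i = j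
      · subst hij; rw [diagonal_apply_eq]
      · rw [diagonal_apply_ne _ hij]
        by_contra hcon
        exact hij (hg i j hcon)
    apply Subtype.ext
    show a.1 * b.1 = b.1 * a.1
    rw [key a ha', key b hb', diagonal_mul_diagonal, diagonal_mul_diagonal]
    congr 1
    funext c
    exact mul_comm _ _
  · rw [← map_pow, ← map_pow, ns_eq, ← map_pow, ← map_pow, ww_sq_sq, map_one, map_one]
  · obtain ⟨a, b, hab, rfl⟩ := exists_of_isRoot _ _ hx
    obtain ⟨y, hy, rfl⟩ := hy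
    rw [X_rtA hab] at hy
    obtain ⟨t, rfl⟩ := hy
    rw [← mul_inv_eq_iff_eq_mul, ← map_pow, ← map_mul, ← map_inv, ← map_mul, sq_conj i hab]
    have h3 := (par (isCartan n) i a b).1 he
    have h4 : sg F i a * t * (sg F i b)⁻¹ = t := by
      unfold sg
      by_cases h5 : a = i.castSucc ∨ a = i.succ
      · rw [if_pos h5, if_pos (h3.1 h5)]
        norm_num
      · rw [if_neg h5, if_neg fun h6 => h5 (h3.2 h6)]
        norm_num
    rw [h4]
  · obtain ⟨a, b, hab, rfl⟩ := exists_of_isRoot _ _ hx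
    obtain ⟨y, hy, rfl⟩ := hy
    rw [X_rtA hab] at hy
    obtain ⟨t, rfl⟩ := hy
    rw [← map_pow, ← map_mul, ← map_inv, ← map_mul, sq_conj i hab, ← map_inv]
    have h3 := mt (par (isCartan n) i a b).2 he
    have h4 : sg F i a * t * (sg F i b)⁻¹ = -t := by
      unfold sg
      by_cases h5 : a = i.castSucc ∨ a = i.succ
      · rw [if_pos h5, if_neg fun h6 => h3 ⟨fun _ => h6, fun _ => h5⟩]
        norm_num
      · have h6 : b = i.castSucc ∨ b = i.succ := by
          by_contra h6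
          exact h3 ⟨fun h7 => absurd h7 h5, fun h7 => absurd h7 h6⟩
        rw [if_neg h5, if_pos h6]
        norm_num
    rw [h4, tv_neg]
  · intro j
    by_cases hj : (j : ℕ) + 1 < n
    · refine ⟨⟨j + 1, hj⟩, ?_⟩
      unfold AA
      rw [if_neg (fun e => by have := congrArg Fin.val e; simp at this), if_pos (Or.inr rfl)]
      decide
    · have hj' := j.2
      refine ⟨⟨j - 1, by omega⟩, ?_⟩
      unfold AA
      rw [if_neg (fun e => by have := congrArg Fin.val e; simp at this; omega), if_pos (Or.inl (by simp; omega))]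
      decide
  · refine slNode_of_sl2 ((pr n F).comp (emb (hne i))) ?_ (fun c => ?_) (fun g => ?_) fun t ht => ?_
    · show pr n F (ns n F i) = _
      rw [ns_eq]
      rfl
    · exact Subgroup.mem_map_of_mem _ (mono_dd (hne i) c)
    · show g ∈ (X F (sr i)).map (pr n F) ↔ _
      rw [X_sr]
      constructor
      · rintro ⟨_, ⟨t, rfl⟩, rfl⟩
        exact ⟨t, by rw [MonoidHom.comp_apply, emb_uu]⟩
      · rintro ⟨t, rfl⟩
        exact ⟨tv _ _ t, ⟨t, rfl⟩, by rw [MonoidHom.comp_apply, emb_uu]⟩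
    · rw [MonoidHom.comp_apply, emb_uu] at ht
      exact tv_center (hne i) ht

end Psl

end Cfsg.Agent.H310.OQ
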