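import Cfsg.Agent.H310.OQ.Fold
import Cfsg.Agent.Nodes.RGDTwD4

/-!
# S4884, own odd characteristic: the input for `³D₄(q)` (helper310)
-/

set_option autoImplicit false
set_option linter.unusedSectionVars false

namespace Cfsg.Agent.H310.OQ.TwD4

open CoxeterSystem Cfsg.Agent.ChevalleyStructure.CoxeterGeom Cfsg.Agent.Tits.Roots Cfsg.Agent.Nodes.Reps
  Cfsg.Agent.Nodes.BNOf Cfsg.Agent.Nodes.Bruhat Cfsg.Agent.H684.OQ Cfsg.Agent.H310.OQ
open Cfsg.Lie Cfsg.Agent.ChevalleyStructure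
  Cfsg.Agent.Nodes.RGDChev Cfsg.Agent.Nodes.RGDFold Cfsg.Agent.Nodes.RGDTwD4
open Cfsg.Agent.ChevalleyStructure.TwistedU Cfsg.Agent.ChevalleyStructure.D4Comm
open Cfsg.Agent.ChevalleyStructure.D4U
open Cfsg.Agent.ChevalleyStructure.D4Fixed (sig)
open Cfsg.Agent.ChevalleyStructure.D4Cols (xU)

universe u

variable {K : Type u} [Field K] {q : ℕ} {φ : K →+* K}

theorem s1 : chevD4.simple ((1 : Fin 4) : ℕ) = 14 := by decide +kernel
theorem s0 : chevD4.simple ((0 : Fin 4) : ℕ) = 18 := by decide +kernel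
theorem s2 : chevD4.simple ((2 : Fin 4) : ℕ) = 13 := by decide +kernel
theorem s3 : chevD4.simple ((3 : Fin 4) : ℕ) = 12 := by decide +kernel
theorem n1 : chevD4.neg (chevD4.simple ((1 : Fin 4) : ℕ)) = 9 := by decide +kernel
theorem n0 : chevD4.neg 18 = 5 := by decide +kernel
theorem n2 : chevD4.neg 13 = 10 := by decide +kernel
theorem n3 : chevD4.neg 12 = 11 := by decide +kernel

theorem ex_eq (r : ℕ) (t : K) : Elts.xG hp.inList r t = xU r t := by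
  rw [xG_eq, xU_eq]

theorem node_zero [Fintype K] (hK : Fintype.card K = q ^ 3) (hφ : ∀ x, φ x = x ^ q) :
    NodeOK hp K J (sig φ) (twistedD4 K q) 0 := by
  have hr := NPerm.simple_lt hp.inList (lt_rank hp 1)
  let F₀ : Subfield K := RingHom.eqLocusField φ (RingHom.id K)
  have hF : ∀ t : F₀, φ t.1 = t.1 := fun t => t.2
  obtain ⟨Φ, hB, hu, hl⟩ := exists_blk_single hp 1 (k := F₀) F₀.subtype
  have hle := D4Fixed.twisted_le_fix hK hφ
  have hu' : ∀ t, Φ (uu t) = xU 14 (t : K) := by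
    intro t
    rw [hu, s1, ex_eq]
    rfl
  refine ⟨F₀, inferInstance, inferInstance, Φ, hB, fun t => ?_, fun t => ?_, fun g => ?_, fun t ht => ?_⟩
  · rw [hu']
    exact D4Fixed.x14_mem (by rw [← hφ]; exact hF t)
  · rw [hl, n1, ex_eq]
    exact D4Fixed.x9_mem (by rw [← hφ]; exact hF t)
  · rw [R0]
    constructor
    · rintro ⟨h1, h2⟩
      obtain ⟨t, ht, rfl⟩ := RS_14_fix h1 h2
      exact ⟨⟨t, ht⟩, by rw [hu', xU_eq]⟩
    · rintro ⟨t, rfl⟩
      rw [hu']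
      refine ⟨?_, hle (D4Fixed.x14_mem (by rw [← hφ]; exact hF t))⟩
      rw [xU_eq]
      exact mem_rspan D4Comm.xG (S := {k | k ∈ [14]}) (by simp) _
  · rw [hu] at ht
    exact Subtype.ext ((Elts.xG_eq_one_iff hp.inList hr _).1 ht)

theorem node_one [Fintype K] (hK : Fintype.card K = q ^ 3) (hφ : ∀ x, φ x = x ^ q) :
    NodeOK hp K J (sig φ) (twistedD4 K q) 1 := by
  obtain ⟨Φ₀, hB₀, hu₀, hl₀⟩ := exists_blk_single hp 0 (k := K) (RingHom.id K)
  obtain ⟨Φ₂, hB₂, hu₂, hl₂⟩ := exists_blk_single hp 2 (k := K) φ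
  obtain ⟨Φ₃, hB₃, hu₃, hl₃⟩ := exists_blk_single hp 3 (k := K) (φ.comp φ)
  have hle := D4Fixed.twisted_le_fix hK hφ
  simp only [s0, n0, ex_eq] at hu₀ hl₀
  simp only [s2, n2, ex_eq] at hu₂ hl₂
  simp only [s3, n3, ex_eq] at hu₃ hl₃
  have c02 : ∀ a b, Commute (Φ₀ a) (Φ₂ b) := by
    refine commute_of Φ₀ Φ₂ (fun s t => ?_) (fun s t => ?_) (fun s t => ?_) (fun s t => ?_)
    · rw [hu₀, hu₂]; exact D4Fixed.c_18_13 _ _
    · rw [hu₀, hl₂]; exact D4Fixed.c_18_10 _ _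
    · rw [hl₀, hu₂]; exact D4Fixed.c_5_13 _ _
    · rw [hl₀, hl₂]; exact D4Fixed.c_5_10 _ _
  have c03 : ∀ a b, Commute (Φ₀ a) (Φ₃ b) := by
    refine commute_of Φ₀ Φ₃ (fun s t => ?_) (fun s t => ?_) (fun s t => ?_) (fun s t => ?_)
    · rw [hu₀, hu₃]; exact D4Fixed.c_18_12 _ _
    · rw [hu₀, hl₃]; exact D4Fixed.c_18_11 _ _
    · rw [hl₀, hu₃]; exact D4Fixed.c_5_12 _ _
    · rw [hl₀, hl₃]; exact D4Fixed.c_5_11 _ _
  have c23 : ∀ a b, Commute (Φ₂ a) (Φ₃ b) := by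
    refine commute_of Φ₂ Φ₃ (fun s t => ?_) (fun s t => ?_) (fun s t => ?_) (fun s t => ?_)
    · rw [hu₂, hu₃]; exact D4Fixed.c_13_12 _ _
    · rw [hu₂, hl₃]; exact D4Fixed.c_13_11 _ _
    · rw [hl₂, hu₃]; exact D4Fixed.c_10_12 _ _
    · rw [hl₂, hl₃]; exact D4Fixed.c_10_11 _ _
  obtain ⟨Ψ, hB', hΨ⟩ := hB₂.cons hp hB₃ c23
  have c0 : ∀ a b, Commute (Φ₀ a) (Ψ b) := by
    intro a b
    rw [hΨ]
    exact (c02 a b).mul_right (c03 a b)
  obtain ⟨Φ, hB, hΦ⟩ := hB₀.cons hp hB' c0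
  have hu : ∀ t, Φ (uu t) = D4Fixed.X φ t := by
    intro t
    rw [hΦ, hΨ, hu₀, hu₂, hu₃, ← mul_assoc]
    rfl
  have hl : ∀ t, Φ (ll t) = D4Fixed.Y φ t := by
    intro t
    rw [hΦ, hΨ, hl₀, hl₂, hl₃, ← mul_assoc]
    rfl
  refine ⟨K, inferInstance, inferInstance, Φ, hB, fun t => ?_, fun t => ?_, fun g => ?_, fun t ht => ?_⟩
  · rw [hu]; exact D4Fixed.X_mem hφ t
  · rw [hl]; exact D4Fixed.Y_mem hφ t
  · rw [R1]
    constructor
    · rintro ⟨h1, h2⟩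
      obtain ⟨t, rfl⟩ := RS_outer_fix h1 h2
      exact ⟨t, (hu t).symm⟩
    · rintro ⟨t, rfl⟩
      rw [hu]
      exact ⟨D4Twisted.X_mem_RS _, hle (D4Fixed.X_mem hφ t)⟩
  · rw [hu] at ht
    unfold D4Fixed.X at ht
    rw [xU_eq, xU_eq, xU_eq] at ht
    let T : ℕ → K := fun r => if r = 18 then t else if r = 13 then φ t else φ (φ t)
    have h3 := D4Pos.lprod_inj [18, 13, 12] (by decide +kernel) (t := T) (t' := fun _ => 0) (by
      have e : lprod D4Comm.xG [18, 13, 12] T = 1 := by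
        rw [lprod_cons, lprod_cons, lprod_cons, lprod_nil, mul_one, ← mul_assoc]
        exact ht
      rw [e]
      simp only [lprod_cons, lprod_nil, xG_zero, mul_one]) 18 (by simp)
    exact h3

theorem par : ∀ i, ∀ r < chevD4.nroots, (Even (pairing A i (V chevD4 J r)) ↔
    Even ((J i).map fun j : Fin 4 => chevD4.cartan j r).sum) := by decide +kernel

theorem cls : ∀ r < chevD4.nroots, ∀ s < chevD4.nroots, V chevD4 J r = V chevD4 J s → s ≠ r →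
    s ≠ chevD4.neg r ∧ chevD4.commTerms r s = [] := by decide +kernel

/-- **the input for `³D₄(q)`** -/
theorem hasIn_twD4 {K : Type u} [Field K] [Fintype K] {q : ℕ} (hq : IsPrimePow q) (hK : Fintype.card K = q ^ 3)
    (p : ℕ) [CharP K p] (h2 : (2 : K) ≠ 0) : HasIn p CoxeterMatrix.G₂ ↥(twistedD4 K q) := by
  obtain ⟨φ, hφ⟩ := D4Fixed.exists_frob hq hK
  refine in_fold foldData (foldGrp hφ (D4Fixed.twisted_le_fix hK hφ)) isCartan p h2 (by decide +kernel) (fun i => ?_)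
    par cls
  have : i = 0 ∨ i = 1 := by fin_cases i <;> simp
  rcases this with rfl | rfl
  · exact node_zero hK hφ
  · exact node_one hK hφ

end Cfsg.Agent.H310.OQ.TwD4
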